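import Cfsg.Agent.H525.D32.Mdef

/-!
# S5916, dimension 32: the Siegel elements are not trivial (helper525)
-/

set_option autoImplicit false

namespace Cfsg.Agent.H525.D32

open Matrix

theorem m4_aux (K : Type) [Field K] [CharP K 2] (a : Fin 7) : ∃ w : Fin 8 → K, b8 w (pp a) = 1 := by
  fin_cases a
  · exact ⟨Pi.single 4 1, by simp [b8, pp]⟩
  · exact ⟨Pi.single 5 1, by simp [b8, pp]⟩
  · exact ⟨Pi.single 6 1, by simp [b8, pp]⟩
  · exact ⟨Pi.single 4 1, by simp [b8, pp]⟩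
  · exact ⟨Pi.single 4 1, by simp [b8, pp]⟩
  · exact ⟨Pi.single 5 1, by simp [b8, pp]⟩
  · exact ⟨Pi.single 4 1, by simp [b8, pp]⟩

theorem m4 (K : Type) [Field K] [CharP K 2] (X : Matrix (Fin 8) (Fin 8) K) (_ : GM X) (a : Fin 7)
    (h : q8 (X *ᵥ (pp a : Fin 8 → K)) = 1) : ∃ w, sg (pp a) (X *ᵥ (pp a : Fin 8 → K)) w ≠ w := by
  by_contra hc
  push Not at hc
  obtain ⟨w, hw⟩ := m4_aux K a
  have h1 := hc w
  unfold sg at h1
  rw [hw, one_smul, mul_one, h, one_smul] at h1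
  generalize hu : X *ᵥ (pp a : Fin 8 → K) = u at *
  have h2 : u = (b8 w u + 1) • (pp a : Fin 8 → K) := by
    funext i
    have h3 := congrFun h1 i
    simp only [Pi.add_apply, Pi.smul_apply, smul_eq_mul] at h3 ⊢
    have h4 : u i + (b8 w u * pp a i + pp a i) = 0 := by linear_combination h3
    have h5 : (pp a i : K) + pp a i = 0 := CharTwo.add_self_eq_zero _
    have h6 : b8 w u * pp a i + b8 w u * pp a i = 0 := CharTwo.add_self_eq_zero _
    linear_combination h4 - h5 - h6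
  have h3 : q8 u = (b8 w u + 1) ^ 2 * q8 (pp a : Fin 8 → K) := by
    conv_lhs => rw [h2]
    unfold q8
    simp only [Pi.smul_apply, smul_eq_mul]
    ring
  have h4 : q8 (pp a : Fin 8 → K) = 0 := by
    fin_cases a <;> simp [q8, pp]
  rw [h4, mul_zero, h] at h3
  exact one_ne_zero h3

end Cfsg.Agent.H525.D32
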