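import Mathlib

/-!
# S5916, dimension 32: the 8-dimensional space (definitions)
-/

set_option autoImplicit false

namespace Cfsg.Agent.H525.D32

open Matrix

variable {K : Type*} [Field K]

/-- the opposite index -/
def st (k : Fin 8) : Fin 8 := k + 4

/-- the graph automorphism -/
def ph (k : Fin 8) : Fin 8 := if k = 3 then 7 else if k = 7 then 3 else k

/-- the quadratic form -/
def q8 (v : Fin 8 → K) : K := v 0 * v 4 + v 1 * v 5 + v 2 * v 6 + v 3 * v 7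

/-- its polarisation -/
def b8 (v w : Fin 8 → K) : K := v 0 * w 4 + v 4 * w 0 + (v 1 * w 5 + v 5 * w 1) + (v 2 * w 6 + v 6 * w 2) +
  (v 3 * w 7 + v 7 * w 3)

/-- the Siegel element -/
def sg (p u w : Fin 8 → K) : Fin 8 → K := w + b8 w p • u + b8 w u • p + (q8 u * b8 w p) • p

/-- the properties of the matrix of a toral element -/
structure GM (X : Matrix (Fin 8) (Fin 8) K) : Prop where
  sym : ∀ k l, X k l = X (st l) (st k)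
  alt : ∀ l, X (st l) l = 0
  idem : X * X = X
  rat : ∀ k l, k ≠ l → X k l ^ 2 = X (ph k) (ph l)
  dia : ∀ k, X k k ^ 2 = X (ph k) (ph k) + 1

/-- the seven singular vectors -/
def pp (a : Fin 7) : Fin 8 → K :=
  ![![1, 0, 0, 0, 0, 0, 0, 0], ![0, 1, 0, 0, 0, 0, 0, 0], ![0, 0, 1, 0, 0, 0, 0, 0], ![1, 1, 0, 0, 0, 0, 0, 0],
    ![1, 0, 1, 0, 0, 0, 0, 0], ![0, 1, 1, 0, 0, 0, 0, 0], ![1, 1, 1, 0, 0, 0, 0, 0]] a

/-- M1 -/
def M1Stmt : Prop := ∀ (K : Type) [Field K] [CharP K 2] (X : Matrix (Fin 8) (Fin 8) K) (_ : GM X) (p : Fin 8 → K)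
  (_ : q8 p = 0) (_ : q8 (X *ᵥ p) = 1) (w : Fin 8 → K), X *ᵥ sg p (X *ᵥ p) w = sg p (X *ᵥ p) (X *ᵥ w)

/-- M2 -/
def M2Stmt : Prop := ∀ (K : Type) [Field K] [CharP K 2] (X : Matrix (Fin 8) (Fin 8) K) (_ : GM X),
  ∃ a b : Fin 7, a ≠ b ∧ q8 (X *ᵥ (pp a : Fin 8 → K)) = 1 ∧ q8 (X *ᵥ (pp b : Fin 8 → K)) = 1

/-- M3 -/
def M3Stmt : Prop := ∀ (K : Type) [Field K] [CharP K 2] (X : Matrix (Fin 8) (Fin 8) K) (_ : GM X) (a b : Fin 7)
  (_ : a ≠ b) (_ : q8 (X *ᵥ (pp a : Fin 8 → K)) = 1) (_ : q8 (X *ᵥ (pp b : Fin 8 → K)) = 1),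
  ∃ w, sg (pp a) (X *ᵥ pp a) w ≠ sg (pp b) (X *ᵥ pp b) w

end Cfsg.Agent.H525.D32
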